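import Groth.Agent.Gaga.H983.DimBound
import Groth.Agent.An.H862.AffTop
import Groth.Agent.An.H877.Sep

/-!
# Finite cohomological dimension of compact sets of complex points

`X` locally of finite type over `ℂ` with `X(ℂ)` Hausdorff (e.g. `X` separated): every compact subset `K` of
`X(ℂ)` has a bound `D` such that `IndZero F K' q` for all abelian sheaves `F`, compact `K' ⊆ K`, `q > D`.
If moreover `X(ℂ)` is compact, `H^q(X(ℂ), F) = 0` for all `F` and `q > D`.
-/

set_option autoImplicit false

open CategoryTheory AlgebraicGeometry Topology TopologicalSpace Opposite Filter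
open Groth.Agent.An.H863.PtsBasic Groth.Agent.An.H863.PtsCont

namespace Groth.Agent.Gaga.H983.DimPts

open Groth.Agent.Gaga.H983.DimBase Groth.Agent.Gaga.H983.DimBound

variable {X : Scheme.{0}} [X.Over An.SC]

instance t2Space_top [T2Space (An.Pts X)] : T2Space (An.top X) := inferInstanceAs (T2Space (An.Pts X))

instance compactSpace_top [CompactSpace (An.Pts X)] : CompactSpace (An.top X) :=
  inferInstanceAs (CompactSpace (An.Pts X))

/-- A separated scheme locally of finite type over `ℂ` has a Hausdorff space of complex points. -/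
theorem t2Space_pts [LocallyOfFiniteType (X ↘ An.SC)] [IsSeparated (X ↘ An.SC)] :
    T2Space (An.Pts X) := by
  have : LocallyOfFiniteType (An.SC ↘ An.SC) := by
    change LocallyOfFiniteType (𝟙 An.SC)
    infer_instance
  have h1 := (Groth.Agent.An.H877.Sep.isSeparated_iff_isSeparatedMap (X ↘ An.SC)).1 inferInstance
  have hs : Subsingleton (An.Pts An.SC) := by
    refine ⟨fun a b => Subtype.ext ?_⟩
    have ha := a.2
    have hb := b.2
    change a.1 ≫ 𝟙 _ = 𝟙 _ at ha
    change b.1 ≫ 𝟙 _ = 𝟙 _ at hb
    rw [Category.comp_id] at ha hb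
    rw [ha, hb]
  have hc : An.Pts.map (X ↘ An.SC) = fun _ => ⟨𝟙 _, Category.id_comp _⟩ := by
    funext x
    exact Subsingleton.elim _ _
  rw [hc, ← t2space_iff_isSeparatedMap] at h1
  exact h1

/-- A compact set of complex points of an affine open has a bound. -/
theorem exists_boundedBy_affine [LocallyOfFiniteType (X ↘ An.SC)] [T2Space (An.Pts X)]
    {U : X.Opens} (hU : IsAffineOpen U) (K : Set (An.top X))
    (hK : K ⊆ (An.Pts.pt ⁻¹' (U : Set X) : Set (An.Pts X))) : ∃ D, BoundedBy K D := by
  obtain ⟨n, s, hs⟩ := Groth.Agent.An.H862.AffTop.exists_gen U hU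
  refine ⟨_, boundedBy_of_injOn_normedSpace (T := An.top X) (Fin n → ℂ)
    (fun x i => evAt (X := X) x U (s i)) ?_ ?_⟩
  · exact continuousOn_pi.2 fun i => (continuousOn_evAt U (s i)).mono hK
  · intro x hx y hy hxy
    have h1 := (Groth.Agent.An.H862.AffTop.isClosedEmbedding_opens U hU s hs).injective
    have h2 := @h1 ⟨x, hK hx⟩ ⟨y, hK hy⟩ (by
      funext i
      have := congrFun hxy i
      change evAt (X := X) x U (s i) = evAt (X := X) y U (s i) at this
      rwa [evAt_of_mem (hK hx), evAt_of_mem (hK hy)] at this)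
    exact congrArg Subtype.val h2

/-- Compact sets of complex points have finite cohomological dimension. -/
theorem exists_boundedBy [LocallyOfFiniteType (X ↘ An.SC)] [T2Space (An.Pts X)]
    {K : Set (An.top X)} (hK : IsCompact K) : ∃ D, BoundedBy K D := by
  have hlc : LocallyCompactSpace (An.Pts X) := Groth.Agent.An.H862.AffTop.locallyCompactSpace
  refine exists_bound_of_locally hK (fun x _ => ?_)
  obtain ⟨U, hU, hxU, -⟩ := (X.isBasis_affineOpens.exists_subset_of_mem_open
    (Set.mem_univ (An.Pts.pt (X := X) x)) isOpen_univ)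
  obtain ⟨U, hUa, rfl⟩ := hU
  obtain ⟨L, hL, hLU, hLc⟩ := @local_compact_nhds (An.Pts X) _ _ x _
    ((An.Pts.isOpen_preimage_pt U).mem_nhds hxU)
  exact ⟨L, mem_nhdsWithin_of_mem_nhds hL, hLc, exists_boundedBy_affine hUa L hLU⟩

/-- The cohomology of a compact Hausdorff `X(ℂ)` vanishes in large degrees, uniformly in the sheaf. -/
theorem exists_subsingleton_H [LocallyOfFiniteType (X ↘ An.SC)] [T2Space (An.Pts X)]
    [CompactSpace (An.Pts X)] :
    ∃ D : ℕ, ∀ (F : CohTop.Ab (An.top X)) (q : ℕ), D < q → Subsingleton (CohTop.H F q) := by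
  obtain ⟨D, hD⟩ := exists_boundedBy (X := X) (K := Set.univ) isCompact_univ
  exact ⟨D, fun F q hq => subsingleton_H_of_boundedBy_univ hD F q hq⟩

end Groth.Agent.Gaga.H983.DimPts
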