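import Groth.Agent.CohtopA.NoethVanish
import Mathlib.Topology.Separation.Hausdorff
import Mathlib.Topology.Separation.Regular

/-!
# Classes dying near compact subsets: Mayer-Vietoris

`T` a Hausdorff space, `F` an abelian sheaf on `T`.

* `Dies F q a K` : the class `a ∈ H^q(U, F)` vanishes on an open neighbourhood of `K` contained in `U`;
* `IndZero F K q` : every class of degree `q` on a neighbourhood of `K` vanishes on a smaller neighbourhood;
* `exists_mv_class₂` : Mayer-Vietoris, shrinking both opens;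
* `Dies.union` : if `a` (degree `q + 1`) dies near the compact sets `K`, `L` and `IndZero F (K ∩ L) q`
  then `a` dies near `K ∪ L`; `IndZero.union`.
* `indZero_of_subsingleton`, `indZero_singleton` : positive degree classes die near points.
-/

set_option autoImplicit false
universe u

open CategoryTheory Abelian Limits Opposite TopologicalSpace

namespace Groth.Agent.Gaga.H983.DimBase

open Groth.Agent.CohtopA.FreeAb Groth.Agent.CohtopA.MVClass Groth.Agent.CohtopA.NoethVanish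

variable {T : TopCat.{u}}

/-- The class `a ∈ H^q(U, F)` vanishes on some open neighbourhood of `K` contained in `U`. -/
def Dies (F : CohTop.Ab T) (q : ℕ) {U : Opens T} (a : CohTop.HU F q U) (K : Set T) : Prop :=
  ∃ (V : Opens T) (h : V ≤ U), K ⊆ V ∧ CohTop.res F q h a = 0

/-- Every class of degree `q` on an open neighbourhood of `K` vanishes on a smaller one. -/
def IndZero (F : CohTop.Ab T) (K : Set T) (q : ℕ) : Prop :=
  ∀ U : Opens T, K ⊆ U → ∀ a : CohTop.HU F q U, ∃ (V : Opens T) (h : V ≤ U),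
    K ⊆ V ∧ CohTop.res F q h a = 0

theorem IndZero.dies {F : CohTop.Ab T} {K : Set T} {q : ℕ} (h : IndZero F K q) {U : Opens T}
    (hKU : K ⊆ U) (a : CohTop.HU F q U) : Dies F q a K := h U hKU a

theorem Dies.mono {F : CohTop.Ab T} {q : ℕ} {U : Opens T} {a : CohTop.HU F q U} {K L : Set T}
    (h : Dies F q a L) (hKL : K ⊆ L) : Dies F q a K := by
  obtain ⟨V, hV, hLV, h0⟩ := h
  exact ⟨V, hV, hKL.trans hLV, h0⟩

theorem Dies.subset {F : CohTop.Ab T} {q : ℕ} {U : Opens T} {a : CohTop.HU F q U} {K : Set T}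
    (h : Dies F q a K) : K ⊆ U := by
  obtain ⟨V, hV, hKV, -⟩ := h
  exact hKV.trans hV

/-- Mayer-Vietoris, `Ext` form, shrinking both opens. -/
theorem exists_mv_ext₂ (F : CohTop.Ab T) (U V : Opens T) (n : ℕ)
    (ξ : Ext.{u} (freeAb (Opens.grothendieckTopology T) (U ⊔ V)) F (n + 1))
    (h1 : (Ext.mk₀ (freeAbMap (Opens.grothendieckTopology T) (homOfLE (le_sup_left : U ≤ U ⊔ V)))).comp
      ξ (zero_add _) = 0)
    (h2 : (Ext.mk₀ (freeAbMap (Opens.grothendieckTopology T) (homOfLE (le_sup_right : V ≤ U ⊔ V)))).comp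
      ξ (zero_add _) = 0) :
    ∃ η : Ext.{u} (freeAb (Opens.grothendieckTopology T) (U ⊓ V)) F n,
      ∀ (U' V' : Opens T) (h : U' ≤ U) (h' : V' ≤ V),
        (Ext.mk₀ (freeAbMap (Opens.grothendieckTopology T) (homOfLE (inf_le_inf h h')))).comp
          η (zero_add _) = 0 →
        (Ext.mk₀ (freeAbMap (Opens.grothendieckTopology T) (homOfLE (sup_le_sup h h')))).comp
          ξ (zero_add _) = 0 := by
  obtain ⟨η, hη⟩ := exists_ext_of_square
    (freeAbMap (Opens.grothendieckTopology T) (homOfLE (inf_le_left : U ⊓ V ≤ U)))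
    (freeAbMap (Opens.grothendieckTopology T) (homOfLE (inf_le_right : U ⊓ V ≤ V)))
    (freeAbMap (Opens.grothendieckTopology T) (homOfLE (le_sup_left : U ≤ U ⊔ V)))
    (freeAbMap (Opens.grothendieckTopology T) (homOfLE (le_sup_right : V ≤ U ⊔ V)))
    (Opens.mayerVietorisSquare U V).shortComplex.zero
    (Opens.mayerVietorisSquare U V).shortComplex_shortExact F n ξ h1 h2
  refine ⟨η, fun U' V' h h' h3 => ?_⟩
  refine hη _ _ _ _
    (freeAbMap (Opens.grothendieckTopology T) (homOfLE (inf_le_left : U' ⊓ V' ≤ U')))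
    (freeAbMap (Opens.grothendieckTopology T) (homOfLE (inf_le_right : U' ⊓ V' ≤ V')))
    (freeAbMap (Opens.grothendieckTopology T) (homOfLE (le_sup_left : U' ≤ U' ⊔ V')))
    (freeAbMap (Opens.grothendieckTopology T) (homOfLE (le_sup_right : V' ≤ U' ⊔ V')))
    (Opens.mayerVietorisSquare U' V').shortComplex.zero
    (Opens.mayerVietorisSquare U' V').shortComplex_shortExact
    (freeAbMap (Opens.grothendieckTopology T) (homOfLE (inf_le_inf h h')))
    (freeAbMap (Opens.grothendieckTopology T) (homOfLE h))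
    (freeAbMap (Opens.grothendieckTopology T) (homOfLE h'))
    (freeAbMap (Opens.grothendieckTopology T) (homOfLE (sup_le_sup h h')))
    ?_ ?_ ?_ ?_ h3
  all_goals exact freeAbMap_comp_eq _ _ _ _

/-- Mayer-Vietoris: a class vanishing on `U` and `V` comes from a class on `U ∩ V`, compatibly with
shrinking `U` and `V`. -/
theorem exists_mv_class₂ (F : CohTop.Ab T) (U V : Opens T) (n : ℕ)
    (ξ : CohTop.HU F (n + 1) (U ⊔ V))
    (h1 : CohTop.res F (n + 1) (le_sup_left : U ≤ U ⊔ V) ξ = 0)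
    (h2 : CohTop.res F (n + 1) (le_sup_right : V ≤ U ⊔ V) ξ = 0) :
    ∃ η : CohTop.HU F n (U ⊓ V),
      ∀ (U' V' : Opens T) (h : U' ≤ U) (h' : V' ≤ V),
        CohTop.res F n (inf_le_inf h h') η = 0 →
        CohTop.res F (n + 1) (sup_le_sup h h') ξ = 0 :=
  exists_mv_ext₂ F U V n ξ h1 h2

/-- Two compact sets of a Hausdorff space, `W` an open neighbourhood of their intersection: there are open
neighbourhoods of the two compact sets meeting inside `W`. -/
theorem exists_nhds_inf_le [T2Space T] {K L : Set T} (hK : IsCompact K) (hL : IsCompact L)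
    {W : Opens T} (hW : K ∩ L ⊆ W) :
    ∃ A B : Opens T, K ⊆ A ∧ L ⊆ B ∧ A ⊓ B ≤ W := by
  have hK' : IsCompact (K \ W) := hK.diff W.isOpen
  have hL' : IsCompact (L \ W) := hL.diff W.isOpen
  have hd : Disjoint (K \ (W : Set T)) (L \ (W : Set T)) := by
    rw [Set.disjoint_left]
    rintro x ⟨hx1, hx2⟩ ⟨hx3, -⟩
    exact hx2 (hW ⟨hx1, hx3⟩)
  obtain ⟨A, B, hA, hB, hKA, hLB, hAB⟩ := SeparatedNhds.of_isCompact_isCompact hK' hL' hd
  refine ⟨⟨A, hA⟩ ⊔ W, ⟨B, hB⟩ ⊔ W, ?_, ?_, ?_⟩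
  · intro x hx
    by_cases hxW : x ∈ W
    · exact Or.inr hxW
    · exact Or.inl (hKA ⟨hx, hxW⟩)
  · intro x hx
    by_cases hxW : x ∈ W
    · exact Or.inr hxW
    · exact Or.inl (hLB ⟨hx, hxW⟩)
  · rintro x ⟨hx1, hx2⟩
    rcases hx1 with hx1 | hx1
    · rcases hx2 with hx2 | hx2
      · exact (Set.disjoint_left.1 hAB hx1 hx2).elim
      · exact hx2
    · exact hx1

theorem Dies.union [T2Space T] {F : CohTop.Ab T} {q : ℕ} {U : Opens T} {a : CohTop.HU F (q + 1) U}
    {K L : Set T} (hK : IsCompact K) (hL : IsCompact L) (h1 : Dies F (q + 1) a K)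
    (h2 : Dies F (q + 1) a L) (h3 : IndZero F (K ∩ L) q) : Dies F (q + 1) a (K ∪ L) := by
  obtain ⟨V₁, hV₁, hK₁, h10⟩ := h1
  obtain ⟨V₂, hV₂, hL₂, h20⟩ := h2
  obtain ⟨η, hη⟩ := exists_mv_class₂ F V₁ V₂ q (CohTop.res F (q + 1) (sup_le hV₁ hV₂) a)
    (by rw [res_res]; exact h10) (by rw [res_res]; exact h20)
  obtain ⟨W, hW, hKLW, hW0⟩ := h3 (V₁ ⊓ V₂) (fun x hx => ⟨hK₁ hx.1, hL₂ hx.2⟩) η
  obtain ⟨A, B, hKA, hLB, hAB⟩ := exists_nhds_inf_le hK hL hKLW
  refine ⟨(A ⊓ V₁) ⊔ (B ⊓ V₂), sup_le (inf_le_right.trans hV₁) (inf_le_right.trans hV₂), ?_, ?_⟩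
  · rintro x (hx | hx)
    · exact Or.inl ⟨hKA hx, hK₁ hx⟩
    · exact Or.inr ⟨hLB hx, hL₂ hx⟩
  · have h4 := hη (A ⊓ V₁) (B ⊓ V₂) inf_le_right inf_le_right
      (res_eq_zero_of_le' F q hW ((inf_le_inf inf_le_left inf_le_left).trans hAB) _ η hW0)
    rw [res_res] at h4
    exact h4

theorem IndZero.union [T2Space T] {F : CohTop.Ab T} {q : ℕ} {K L : Set T} (hK : IsCompact K)
    (hL : IsCompact L) (h1 : IndZero F K (q + 1)) (h2 : IndZero F L (q + 1))
    (h3 : IndZero F (K ∩ L) q) : IndZero F (K ∪ L) (q + 1) := fun U hU a =>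
  Dies.union hK hL (h1 U (Set.subset_union_left.trans hU) a)
    (h2 U (Set.subset_union_right.trans hU) a) h3

theorem dies_empty (F : CohTop.Ab T) (q : ℕ) {U : Opens T} (a : CohTop.HU F q U) :
    Dies F q a ∅ :=
  ⟨⊥, bot_le, Set.empty_subset _, @Subsingleton.elim _ (subsingleton_HU_bot F q) _ _⟩

theorem indZero_empty (F : CohTop.Ab T) (q : ℕ) : IndZero F ∅ q := fun _ _ a => dies_empty F q a

theorem indZero_singleton (F : CohTop.Ab T) (q : ℕ) (hq : 0 < q) (x : T) : IndZero F {x} q := by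
  intro U hU a
  obtain ⟨q, rfl⟩ : ∃ k, q = k + 1 := ⟨q - 1, by omega⟩
  obtain ⟨V, hV, hxV, h0⟩ := exists_open_res_eq_zero F q U a x (hU rfl)
  exact ⟨V, hV, Set.singleton_subset_iff.2 hxV, h0⟩

theorem indZero_of_subsingleton (F : CohTop.Ab T) (q : ℕ) (hq : 0 < q) {K : Set T}
    (hK : K.Subsingleton) : IndZero F K q := by
  rcases hK.eq_empty_or_singleton with rfl | ⟨x, rfl⟩
  · exact indZero_empty F q
  · exact indZero_singleton F q hq x

/-- `IndZero` on the whole space is vanishing of cohomology. -/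
theorem subsingleton_H_of_indZero_univ {F : CohTop.Ab T} {q : ℕ} (h : IndZero F Set.univ q) :
    Subsingleton (CohTop.H F q) := by
  have h1 : Subsingleton (CohTop.HU F q (⊤ : Opens T)) := by
    refine subsingleton_of_forall_eq 0 (fun ξ => ?_)
    obtain ⟨V, hV, hKV, h0⟩ := h ⊤ (fun _ _ => trivial) ξ
    obtain rfl : V = ⊤ := top_le_iff.1 (fun x _ => hKV trivial)
    have h2 := ConcreteCategory.congr_hom
      ((Sheaf.cohomologyPresheaf.{u} F q).map_id (op (⊤ : Opens T))) ξ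
    exact h2.symm.trans h0
  exact (Groth.Agent.CohtopA.Flasque.HTopEquiv F q).toEquiv.subsingleton

theorem indZero_univ_of_subsingleton_H {F : CohTop.Ab T} {q : ℕ} (h : Subsingleton (CohTop.H F q)) :
    IndZero F Set.univ q := by
  intro U hU a
  obtain rfl : U = ⊤ := top_le_iff.1 (fun x _ => hU trivial)
  have h1 : Subsingleton (CohTop.HU F q (⊤ : Opens T)) :=
    (Groth.Agent.CohtopA.Flasque.HTopEquiv F q).symm.toEquiv.subsingleton
  exact ⟨⊤, le_rfl, hU, by rw [Subsingleton.elim a 0, map_zero]⟩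

end Groth.Agent.Gaga.H983.DimBase
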