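import Groth.Agent.Gaga.H983.DimBase
import Mathlib.Topology.UnitInterval
import Mathlib.Topology.Order.Compact
import Mathlib.Analysis.SpecificLimits.Basic
import Mathlib.Topology.Algebra.Module.FiniteDimension
import Mathlib.Analysis.Normed.Module.FiniteDimension

/-!
# The topological bound for the cohomological dimension of compact sets

`T` a Hausdorff space, `K ⊆ T` compact, `F` an abelian sheaf on `T`.

* `indZero_of_fibres_real` : `f : T → ℝ` continuous on `K`, all fibres `K ∩ f⁻¹{c}` satisfy `IndZero F _ q` for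
  `q > e`; then `IndZero F K q` for `q > e + 1`;
* `indZero_of_fibres` : the same for `f : T → (Fin d → ℝ)`, `q > d + e`;
* `indZero_of_injOn` : `f : T → (Fin d → ℝ)` continuous and injective on `K`, `q > d`;
* `exists_bound_of_locally` : `K` locally embeddable in some `ℝ^d`: there is `D` with `IndZero F K' q` for
  all `F`, all compact `K' ⊆ K` and all `q > D`.
-/

set_option autoImplicit false
universe u

open CategoryTheory TopologicalSpace

namespace Groth.Agent.Gaga.H983.DimBound

open Groth.Agent.Gaga.H983.DimBase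

variable {T : TopCat.{u}}

/-- A point of the interval: near the fibre over it the class dies, hence over an open neighbourhood. -/
theorem exists_Ioo_dies [T2Space T] {F : CohTop.Ab T} {q : ℕ} {U : Opens T} {a : CohTop.HU F q U}
    {K : Set T} (hK : IsCompact K) (f : T → ℝ) (hf : ContinuousOn f K) (c : ℝ)
    (hc : Dies F q a (K ∩ f ⁻¹' {c})) :
    ∃ ε > 0, Dies F q a (K ∩ f ⁻¹' (Metric.closedBall c ε)) := by
  obtain ⟨V, hV, hcV, h0⟩ := hc
  have hcpt : ∀ s : Set ℝ, IsClosed s → IsCompact (K ∩ f ⁻¹' s) := fun s hs => by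
    have := hf.preimage_isClosed_of_isClosed hK.isClosed hs
    exact hK.of_isClosed_subset this Set.inter_subset_left
  have h1 : (⋂ n : ℕ, (K ∩ f ⁻¹' (Metric.closedBall c (1 / (n + 1 : ℝ))))) ⊆ (V : Set T) := by
    intro x hx
    rw [Set.mem_iInter] at hx
    refine hcV ⟨(hx 0).1, ?_⟩
    have h2 : dist (f x) c ≤ 0 := by
      refine ge_of_tendsto' tendsto_one_div_add_atTop_nhds_zero_nat (fun n => ?_)
      exact (hx n).2
    exact dist_le_zero.1 h2
  have hdir : Directed (fun s t : Set T => t ⊆ s)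
      (fun n : ℕ => K ∩ f ⁻¹' (Metric.closedBall c (1 / (n + 1 : ℝ)))) := by
    apply Antitone.directed_ge
    intro m n hmn
    refine Set.inter_subset_inter_right _ (Set.preimage_mono (Metric.closedBall_subset_closedBall ?_))
    have : (0 : ℝ) < m + 1 := by positivity
    have h3 : (m : ℝ) ≤ n := by exact_mod_cast hmn
    gcongr
  obtain ⟨n, hn⟩ := exists_subset_nhds_of_isCompact (X := T) hdir
    (fun n => hcpt _ Metric.isClosed_closedBall) (U := (V : Set T))
    (fun x hx => V.isOpen.mem_nhds (h1 hx))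
  exact ⟨1 / (n + 1 : ℝ), by positivity, V, hV, hn, h0⟩

/-- The bisection step, for one class. -/
theorem dies_of_fibres_real [T2Space T] {F : CohTop.Ab T} {q : ℕ} {U : Opens T}
    {a : CohTop.HU F (q + 1) U} {K : Set T} (hK : IsCompact K) (f : T → ℝ)
    (hf : ContinuousOn f K) (h1 : ∀ c, Dies F (q + 1) a (K ∩ f ⁻¹' {c}))
    (h2 : ∀ c, IndZero F (K ∩ f ⁻¹' {c}) q) : Dies F (q + 1) a K := by
  rcases K.eq_empty_or_nonempty with rfl | hne
  · exact dies_empty F _ a
  have hcpt : ∀ s : Set ℝ, IsClosed s → IsCompact (K ∩ f ⁻¹' s) := fun s hs => by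
    have := hf.preimage_isClosed_of_isClosed hK.isClosed hs
    exact hK.of_isClosed_subset this Set.inter_subset_left
  obtain ⟨x₀, hx₀, hmin⟩ := hK.exists_isMinOn hne hf
  obtain ⟨x₁, hx₁, hmax⟩ := hK.exists_isMaxOn hne hf
  have hle : f x₀ ≤ f x₁ := hmin hx₁
  choose ε hε hdie using fun c => exists_Ioo_dies hK f hf c (h1 c)
  obtain ⟨t, ht0, htmono, ⟨m, hm⟩, hcov⟩ := exists_monotone_Icc_subset_open_cover_Icc hle
    (c := fun c : ℝ => (Subtype.val ⁻¹' (Metric.ball c (ε c)) : Set (Set.Icc (f x₀) (f x₁))))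
    (fun c => Metric.isOpen_ball.preimage continuous_subtype_val)
    (fun x _ => Set.mem_iUnion.2 ⟨x.1, Metric.mem_ball_self (hε x.1)⟩)
  have key : ∀ n : ℕ, Dies F (q + 1) a (K ∩ f ⁻¹' (Set.Icc (f x₀) (t n).1)) := by
    intro n
    induction n with
    | zero =>
      rw [ht0, Set.Icc_self]
      exact h1 _
    | succ n ih =>
      have hsplit : K ∩ f ⁻¹' (Set.Icc (f x₀) (t (n + 1)).1) =
          (K ∩ f ⁻¹' (Set.Icc (f x₀) (t n).1)) ∪ (K ∩ f ⁻¹' (Set.Icc (t n).1 (t (n + 1)).1)) := by
        rw [← Set.inter_union_distrib_left, ← Set.preimage_union,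
          Set.Icc_union_Icc_eq_Icc (t n).2.1 (htmono (Nat.le_succ n))]
      rw [hsplit]
      refine Dies.union (hcpt _ isClosed_Icc) (hcpt _ isClosed_Icc) ih ?_ ?_
      · obtain ⟨c, hc⟩ := hcov n
        refine (hdie c).mono (Set.inter_subset_inter_right _ (Set.preimage_mono ?_))
        intro y hy
        have hy' : y ∈ Set.Icc (f x₀) (f x₁) := ⟨(t n).2.1.trans hy.1, hy.2.trans (t (n + 1)).2.2⟩
        exact Metric.ball_subset_closedBall (hc (show (⟨y, hy'⟩ : Set.Icc (f x₀) (f x₁)) ∈
          Set.Icc (t n) (t (n + 1)) from ⟨hy.1, hy.2⟩))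
      · have : (K ∩ f ⁻¹' (Set.Icc (f x₀) (t n).1)) ∩ (K ∩ f ⁻¹' (Set.Icc (t n).1 (t (n + 1)).1)) =
            K ∩ f ⁻¹' {(t n).1} := by
          ext x
          constructor
          · rintro ⟨⟨hx, h3⟩, -, h4⟩
            exact ⟨hx, le_antisymm h3.2 h4.1⟩
          · rintro ⟨hx, h3⟩
            have h3' : f x = (t n).1 := h3
            refine ⟨⟨hx, ?_⟩, hx, ?_⟩
            · change f x ∈ Set.Icc _ _
              rw [h3']
              exact ⟨(t n).2.1, le_rfl⟩
            · change f x ∈ Set.Icc _ _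
              rw [h3']
              exact ⟨le_rfl, htmono (Nat.le_succ n)⟩
        rw [this]
        exact h2 _
  have hlast := key m
  rw [hm m le_rfl] at hlast
  refine hlast.mono (fun x hx => ⟨hx, ?_⟩)
  exact ⟨hmin hx, hmax hx⟩

/-- One real function: the bound increases by one. -/
theorem indZero_of_fibres_real [T2Space T] {F : CohTop.Ab T} {K : Set T} (hK : IsCompact K)
    (f : T → ℝ) (hf : ContinuousOn f K) (e : ℕ)
    (h : ∀ c, ∀ q, e < q → IndZero F (K ∩ f ⁻¹' {c}) q) (q : ℕ) (hq : e + 1 < q) :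
    IndZero F K q := by
  obtain ⟨q, rfl⟩ : ∃ k, q = k + 1 := ⟨q - 1, by omega⟩
  intro U hU a
  exact dies_of_fibres_real hK f hf
    (fun c => h c (q + 1) (by omega) U (Set.inter_subset_left.trans hU) a)
    (fun c => h c q (by omega))

/-- Fibre form: `K` compact with a continuous map to `ℝ^d` whose fibres are acyclic in degrees `> e`. -/
theorem indZero_of_fibres [T2Space T] {F : CohTop.Ab T} (e : ℕ) (d : ℕ) :
    ∀ {K : Set T} (_ : IsCompact K) (f : T → (Fin d → ℝ)) (_ : ContinuousOn f K)
      (_ : ∀ y, ∀ q, e < q → IndZero F (K ∩ f ⁻¹' {y}) q) (q : ℕ) (_ : d + e < q),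
      IndZero F K q := by
  induction d with
  | zero =>
    intro K hK f hf h q hq
    have := h (fun i => i.elim0) q (by omega)
    have h2 : K ∩ f ⁻¹' {fun i => i.elim0} = K := by
      rw [Set.inter_eq_left]
      intro x _
      exact Subsingleton.elim _ _
    rwa [h2] at this
  | succ d ih =>
    intro K hK f hf h q hq
    refine indZero_of_fibres_real hK (fun x => f x 0) ?_ (d + e) ?_ q (by omega)
    · exact (continuous_apply 0).comp_continuousOn hf
    · intro c q hq
      have hKc : IsCompact (K ∩ (fun x => f x 0) ⁻¹' {c}) := by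
        have := ((continuous_apply (0 : Fin (d + 1))).comp_continuousOn
          hf).preimage_isClosed_of_isClosed hK.isClosed (isClosed_singleton (x := c))
        exact hK.of_isClosed_subset this Set.inter_subset_left
      refine ih hKc (fun x i => f x i.succ) ?_ ?_ q hq
      · refine continuousOn_pi.2 (fun i => ?_)
        exact ((continuous_apply i.succ).comp_continuousOn hf).mono Set.inter_subset_left
      · intro y q hq
        have h3 : K ∩ (fun x => f x 0) ⁻¹' {c} ∩ (fun x i => f x (Fin.succ i)) ⁻¹' {y} =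
            K ∩ f ⁻¹' {Fin.cons c y} := by
          ext x
          constructor
          · rintro ⟨⟨hx, h3⟩, h4⟩
            refine ⟨hx, ?_⟩
            change f x = Fin.cons c y
            funext i
            refine Fin.cases ?_ (fun j => ?_) i
            · exact h3
            · exact congrFun h4 j
          · rintro ⟨hx, h3⟩
            have h3' : f x = Fin.cons c y := h3
            refine ⟨⟨hx, ?_⟩, ?_⟩
            · change f x 0 = c
              rw [h3', Fin.cons_zero]
            · change (fun i => f x (Fin.succ i)) = y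
              rw [h3']
              funext i
              exact Fin.cons_succ _ _ _
        rw [h3]
        exact h _ q hq

/-- The dimension bound: a compact set embeddable in `ℝ^d` has no cohomology in degrees `> d`. -/
theorem indZero_of_injOn [T2Space T] (F : CohTop.Ab T) {K : Set T} (hK : IsCompact K) (d : ℕ)
    (f : T → (Fin d → ℝ)) (hf : ContinuousOn f K) (hinj : Set.InjOn f K) (q : ℕ) (hq : d < q) :
    IndZero F K q := by
  refine indZero_of_fibres 0 d hK f hf (fun y q hq => ?_) q (by omega)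
  refine indZero_of_subsingleton F q hq ?_
  rintro x ⟨hx, hxy⟩ x' ⟨hx', hxy'⟩
  exact hinj hx hx' (hxy.trans hxy'.symm)

/-- Variant with an arbitrary finite dimensional real normed space as target. -/
theorem indZero_of_injOn_normedSpace [T2Space T] (F : CohTop.Ab T) {K : Set T} (hK : IsCompact K)
    (E : Type*) [NormedAddCommGroup E] [NormedSpace ℝ E] [FiniteDimensional ℝ E]
    (f : T → E) (hf : ContinuousOn f K) (hinj : Set.InjOn f K) (q : ℕ)
    (hq : Module.finrank ℝ E < q) : IndZero F K q := by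
  let e : E ≃L[ℝ] (Fin (Module.finrank ℝ E) → ℝ) :=
    ContinuousLinearEquiv.ofFinrankEq (by rw [Module.finrank_fin_fun])
  exact indZero_of_injOn F hK _ (fun x => e (f x)) (e.continuous.comp_continuousOn hf)
    (fun x hx y hy hxy => hinj hx hy (e.injective hxy)) q hq

/-- `K` has cohomological dimension at most `D` in the strong sense: for all compact subsets and all sheaves. -/
def BoundedBy (K : Set T) (D : ℕ) : Prop :=
  ∀ (F : CohTop.Ab T) (K' : Set T), IsCompact K' → K' ⊆ K → ∀ q, D < q → IndZero F K' q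

theorem BoundedBy.mono {K L : Set T} {D D' : ℕ} (h : BoundedBy L D) (hKL : K ⊆ L) (hD : D ≤ D') :
    BoundedBy K D' := fun F K' hK' h1 q hq => h F K' hK' (h1.trans hKL) q (by omega)

theorem BoundedBy.union [T2Space T] {K L : Set T} (hK : IsCompact K) (hL : IsCompact L)
    {D : ℕ} (h1 : BoundedBy K D) (h2 : BoundedBy L D) : BoundedBy (K ∪ L) (D + 1) := by
  intro F K' hK' hsub q hq
  obtain ⟨q, rfl⟩ : ∃ k, q = k + 1 := ⟨q - 1, by omega⟩
  have h3 : K' = (K' ∩ K) ∪ (K' ∩ L) := by
    rw [← Set.inter_union_distrib_left, Set.inter_eq_left.2 hsub]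
  rw [h3]
  have hcK : IsCompact (K' ∩ K) := hK'.inter hK
  have hcL : IsCompact (K' ∩ L) := hK'.inter hL
  refine IndZero.union hcK hcL (h1 F _ hcK Set.inter_subset_right _ (by omega))
    (h2 F _ hcL Set.inter_subset_right _ (by omega)) ?_
  exact h1 F _ (hcK.inter hcL) (fun x hx => hx.1.2) q (by omega)

theorem boundedBy_of_injOn [T2Space T] {K : Set T} (d : ℕ)
    (f : T → (Fin d → ℝ)) (hf : ContinuousOn f K) (hinj : Set.InjOn f K) : BoundedBy K d :=
  fun F _ hK' hsub q hq => indZero_of_injOn F hK' d f (hf.mono hsub) (hinj.mono hsub) q hq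

theorem boundedBy_of_injOn_normedSpace [T2Space T] {K : Set T} (E : Type*) [NormedAddCommGroup E]
    [NormedSpace ℝ E] [FiniteDimensional ℝ E] (f : T → E) (hf : ContinuousOn f K)
    (hinj : Set.InjOn f K) : BoundedBy K (Module.finrank ℝ E) :=
  fun F _ hK' hsub q hq =>
    indZero_of_injOn_normedSpace F hK' E f (hf.mono hsub) (hinj.mono hsub) q hq

/-- Locally embeddable compact sets have a finite bound. -/
theorem exists_bound_of_locally [T2Space T] {K : Set T} (hK : IsCompact K)
    (h : ∀ x ∈ K, ∃ L ∈ nhdsWithin x K, IsCompact L ∧ ∃ D, BoundedBy L D) : ∃ D, BoundedBy K D := by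
  obtain ⟨L, hL, hKL, D, hD⟩ : ∃ L, IsCompact L ∧ K ⊆ L ∧ ∃ D, BoundedBy L D := by
    refine hK.induction_on (p := fun S => ∃ L, IsCompact L ∧ S ⊆ L ∧ ∃ D, BoundedBy L D) ?_ ?_ ?_ ?_
    · exact ⟨∅, isCompact_empty, le_rfl, 0, fun F K' _ hsub q _ => by
        rw [Set.subset_empty_iff.1 hsub]
        exact indZero_empty F q⟩
    · rintro s t hst ⟨L, hL, htL, hD⟩
      exact ⟨L, hL, hst.trans htL, hD⟩
    · rintro s t ⟨L, hL, hsL, D, hD⟩ ⟨L', hL', htL', D', hD'⟩
      exact ⟨L ∪ L', hL.union hL', Set.union_subset_union hsL htL', max D D' + 1,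
        BoundedBy.union hL hL' (hD.mono le_rfl (le_max_left _ _)) (hD'.mono le_rfl (le_max_right _ _))⟩
    · intro x hx
      obtain ⟨L, hLx, hLc, hD⟩ := h x hx
      exact ⟨L, hLx, L, hLc, le_rfl, hD⟩
  exact ⟨D, hD.mono hKL le_rfl⟩

/-- On a compact Hausdorff space locally embeddable in `ℝ^d` the cohomology of all abelian sheaves vanishes
above a fixed degree. -/
theorem subsingleton_H_of_boundedBy_univ [T2Space T] [CompactSpace T] {D : ℕ}
    (h : BoundedBy (Set.univ : Set T) D) (F : CohTop.Ab T) (q : ℕ) (hq : D < q) :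
    Subsingleton (CohTop.H F q) :=
  subsingleton_H_of_indZero_univ (h F _ isCompact_univ le_rfl q hq)

end Groth.Agent.Gaga.H983.DimBound
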