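import Groth.Agent.CurvesB.FlatRegular
import Mathlib.RingTheory.RingHom.Flat

/-!
# Regularity along a flat local homomorphism with `m_A B = m_B`

`A → B` flat homomorphism of local rings, both Noetherian, with `m_A B = m_B`: the Krull dimensions and the
minimal numbers of generators of the maximal ideals agree, hence `A` is regular iff `B` is.  Stated for a ring
homomorphism (not an `Algebra` instance), in the form produced by the comparison of an algebraic local ring with
the ring of germs of holomorphic functions.
-/

set_option autoImplicit false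

universe u v

namespace Groth.Agent.Gaga.H983.RegIff

open IsLocalRing

variable {A : Type u} {B : Type v} [CommRing A] [CommRing B] [IsLocalRing A] [IsLocalRing B]

/-- `m_A B = m_B` makes the homomorphism local. -/
theorem isLocalHom_of_map_eq (φ : A →+* B) (h : (maximalIdeal A).map φ = maximalIdeal B) :
    IsLocalHom φ := by
  refine ⟨fun a ha => ?_⟩
  by_contra hna
  have h1 : a ∈ maximalIdeal A := (mem_maximalIdeal a).mpr hna
  have h2 : φ a ∈ maximalIdeal B := h ▸ Ideal.mem_map_of_mem φ h1
  exact (mem_maximalIdeal (φ a)).mp h2 ha

theorem ringKrullDim_eq [IsNoetherianRing A] [IsNoetherianRing B] (φ : A →+* B) (hφ : φ.Flat)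
    (h : (maximalIdeal A).map φ = maximalIdeal B) : ringKrullDim A = ringKrullDim B := by
  algebraize [φ]
  exact Groth.Agent.CurvesB.FlatRegular.ringKrullDim_eq A B h

theorem spanFinrank_maximalIdeal_eq [IsNoetherianRing A] (φ : A →+* B) (hφ : φ.Flat)
    (h : (maximalIdeal A).map φ = maximalIdeal B) :
    (maximalIdeal B).spanFinrank = (maximalIdeal A).spanFinrank := by
  have hloc : IsLocalHom φ := isLocalHom_of_map_eq φ h
  algebraize [φ]
  have : IsLocalHom (algebraMap A B) := hloc
  exact Groth.Agent.CurvesB.FlatRegular.spanFinrank_maximalIdeal_eq A B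
    (IsNoetherian.noetherian (maximalIdeal A)) h

/-- `A` is regular iff `B` is. -/
theorem isRegularLocalRing_iff [IsNoetherianRing A] [IsNoetherianRing B] (φ : A →+* B) (hφ : φ.Flat)
    (h : (maximalIdeal A).map φ = maximalIdeal B) : IsRegularLocalRing A ↔ IsRegularLocalRing B := by
  rw [_root_.isRegularLocalRing_iff, _root_.isRegularLocalRing_iff, ringKrullDim_eq φ hφ h,
    spanFinrank_maximalIdeal_eq φ hφ h]

end Groth.Agent.Gaga.H983.RegIff
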