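import Groth.Prelude.Def_AnHol
import Mathlib.AlgebraicGeometry.Morphisms.FiniteType
import Mathlib.Geometry.RingedSpace.Stalks
import Groth.Agent.Gaga.H983.RegIff

/-!
# Regularity of the algebraic and the holomorphic local ring, from flatness and `m O^an = m^an`
-/

set_option autoImplicit false
open CategoryTheory AlgebraicGeometry Topology TopologicalSpace

namespace Groth.Agent.Gaga.H983.RegOf

open An IsLocalRing

/-- The ring of germs of holomorphic functions is local, with maximal ideal the extension of the algebraic one,
if that extension is its only maximal ideal. -/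
theorem isLocalRing_of {A B : Type*} [CommRing A] [CommRing B] [IsLocalRing A] (φ : A →+* B)
    (h1 : ((maximalIdeal A).map φ).IsMaximal)
    (h2 : ∀ I : Ideal B, I.IsMaximal → I = (maximalIdeal A).map φ) :
    ∃ _ : IsLocalRing B, (maximalIdeal A).map φ = maximalIdeal B := by
  have hB : IsLocalRing B := IsLocalRing.of_unique_max_ideal ⟨_, h1, h2⟩
  exact ⟨hB, (h2 _ (IsLocalRing.maximalIdeal.isMaximal B)).symm⟩

/-- S4317 from the flatness statement (S4313), the first half of S4314 and Noetherianity of the ring of germs. -/
theorem isRegularLocalRing_iff_of (X : Scheme.{0}) [X.Over An.SC] [LocallyOfFiniteType (X ↘ An.SC)]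
    (x : An.Pts X)
    (hflat : (PresheafedSpace.Hom.stalkMap (An.anToScheme X) x).hom.Flat)
    (hmax : ((IsLocalRing.maximalIdeal (X.presheaf.stalk x.pt)).map
        (PresheafedSpace.Hom.stalkMap (An.anToScheme X) x).hom).IsMaximal)
    (huniq : ∀ I : Ideal ((An.anSpace X).presheaf.stalk x), I.IsMaximal →
        I = (IsLocalRing.maximalIdeal (X.presheaf.stalk x.pt)).map
          (PresheafedSpace.Hom.stalkMap (An.anToScheme X) x).hom)
    (hN : IsNoetherianRing ↑((An.anSpace X).presheaf.stalk x)) :
    IsRegularLocalRing ↑(X.presheaf.stalk x.pt) ↔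
      IsRegularLocalRing ↑((An.anSpace X).presheaf.stalk x) := by
  have hX : IsLocallyNoetherian X := LocallyOfFiniteType.isLocallyNoetherian (X ↘ An.SC)
  obtain ⟨_, hB⟩ := isLocalRing_of (PresheafedSpace.Hom.stalkMap (An.anToScheme X) x).hom hmax huniq
  exact RegIff.isRegularLocalRing_iff (PresheafedSpace.Hom.stalkMap (An.anToScheme X) x).hom hflat hB

end Groth.Agent.Gaga.H983.RegOf
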